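import Cfsg.Agent.H359.SK.FiFacts
import Cfsg.Agent.H282.SK.Tools
import Cfsg.Agent.PreUniqCo.FiTwentyTwo

/-!
# S3010 (Sidki pairs): the row `Fi22` (helper359)

* `abc` (product of three commuting transpositions) inverts an element of order 13, which commutes with no involution of
  `Aut(Fi22)`;
* `b` and `a b` invert `b t` (`t` commutes with `a`, not with `b`); an involution `w ∈ O_2(C_G(v, b t))` commutes with
  `a`, `b`, `t` and all transpositions commuting with them, so it is inner (`FiKL.inner_of_fix`), and then it is `a`.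
-/

set_option autoImplicit false
set_option linter.unusedSectionVars false

namespace Cfsg.Agent.H359.SK

open Subgroup Cfsg
open Cfsg.Agent.H282.SK

universe u v

/-- the facts in `G` -/
structure FG {G : Type*} [Group G] (K : Subgroup G) (T : Set G) : Prop where
  f0 : F0 K T
  conj : ∀ g : G, ∀ x ∈ T, g * x * g⁻¹ ∈ T
  kl : ∀ w : G, w * w = 1 → ∀ a ∈ T, ∀ b ∈ T, ∀ t ∈ T, b * a = a * b → t * a = a * t → b * t ≠ t * b → w * a = a * w →
    (∀ y ∈ T, y * a = a * y → y * b = b * y → y * t = t * y → w * y = y * w) → w ∈ K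
  two : ∀ g h : G, g ∉ K → h ∉ K → g * h ∈ K
  t13 : ∀ w x : G, w * w = 1 → x ∈ K → x ^ 13 = 1 → x ≠ 1 → w * x = x * w → w = 1

namespace FG

section
variable {G : Type*} [Group G] {K : Subgroup G} {T : Set G} (F : FG K T)
include F

theorem sq {x : G} (hx : x ∈ T) : x * x = 1 := F.f0.sq x hx

theorem inv_self {x : G} (hx : x ∈ T) : x⁻¹ = x := inv_eq_of_mul_eq_one_left (F.sq hx)

/-- an element of `T` commuting with a product of two commuting members commutes with both -/
theorem pairc {a b c : G} (ha : a ∈ T) (hb : b ∈ T) (hc : c ∈ T) (hab : a ≠ b)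
    (_cab : a * b = b * a) (h : c * (a * b) = a * b * c) : c * a = a * c ∧ c * b = b * c := by
  have haa := F.sq ha
  have hbb := F.sq hb
  have hcc := F.sq hc
  have h1 : c * (a * b) * c = a * b := by rw [h, mul_assoc, hcc, mul_one]
  have h2 : (c * a * c) * (c * b * c) = a * b := by
    rw [← h1]
    calc (c * a * c) * (c * b * c) = c * a * (c * c) * b * c := by group
      _ = c * (a * b) * c := by rw [hcc]; group
  rcases F.f0.three c hc a ha with k1 | k1
  · refine ⟨k1, ?_⟩
    have k2 : c * a * c = a := by rw [k1, mul_assoc, hcc, mul_one]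
    rw [k2] at h2
    have k3 : c * b * c = b := mul_left_cancel h2
    calc c * b = c * b * (c * c) := by rw [hcc, mul_one]
      _ = (c * b * c) * c := by group
      _ = b * c := by rw [k3]
  · rcases F.f0.three c hc b hb with k2 | k2
    · refine ⟨?_, k2⟩
      have k3 : c * b * c = b := by rw [k2, mul_assoc, hcc, mul_one]
      rw [k3] at h2
      have k4 : c * a * c = a := mul_right_cancel h2
      calc c * a = c * a * (c * c) := by rw [hcc, mul_one]
        _ = (c * a * c) * c := by group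
        _ = a * c := by rw [k4]
    · exfalso
      rw [k1, k2] at h2
      have h3 : c * (a * b) * c = 1 := by
        have : a * (c * (a * b) * c) * b = a * 1 * b := by
          rw [mul_one]
          calc a * (c * (a * b) * c) * b = (a * c * a) * (b * c * b) := by group
            _ = a * b := h2
        exact mul_left_cancel (mul_right_cancel this)
      rw [h1] at h3
      apply hab
      rw [← F.inv_self hb]
      exact eq_inv_of_mul_eq_one_left h3

theorem ord3 {a b : G} (ha : a ∈ T) (hb : b ∈ T) (hab : a * b ≠ b * a) : (a * b) ^ 3 = 1 := by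
  have h1 := (F.f0.three a ha b hb).resolve_left hab
  have haa := F.sq ha
  have hbb := F.sq hb
  calc (a * b) ^ 3 = (a * b * a) * (b * a * b) := by simp only [pow_succ, pow_zero, one_mul, mul_assoc]
    _ = (b * a * b) * (b * a * b) := by rw [h1]
    _ = b * a * (b * b) * a * b := by group
    _ = b * (a * a) * b := by rw [hbb]; group
    _ = 1 := by rw [haa, mul_one, hbb]

theorem odd3 {x : G} (hx : x ^ 3 = 1) : Odd (orderOf x) := by
  have h1 : orderOf x ∣ 3 := orderOf_dvd_of_pow_eq_one hx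
  exact Odd.of_dvd_nat (by decide) h1

/-- an element of `O_2(C)` commutes with `f` -/
theorem fixO2 [Finite G] {C : Subgroup G} {w f : G} (hw : w ∈ O2 C) (hf : f ∈ T) (hfC : f ∈ C)
    (hy : w * f * w⁻¹ ≠ f → w * f * w⁻¹ * f = f * (w * f * w⁻¹) →
      ∃ y ∈ T, y ∈ C ∧ y * (w * f * w⁻¹) = w * f * w⁻¹ * y ∧ y * f ≠ f * y) : w * f = f * w := by
  set e : G := w * f * w⁻¹ with he
  have heT : e ∈ T := F.conj w f hf
  have hff := F.sq hf
  have hee := F.sq heT
  have hfi := F.inv_self hf
  have hei := F.inv_self heT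
  have hr : w * f * w⁻¹ * f⁻¹ = e * f := by rw [hfi, ← he]
  by_cases hef : e = f
  · rw [he, mul_inv_eq_iff_eq_mul] at hef
    exact hef
  by_cases hc : e * f = f * e
  · exfalso
    obtain ⟨y, hyT, hyC, hye, hyf⟩ := hy hef hc
    apply hyf
    have hrO : e * f ∈ O2 C := by
      rw [← hr]
      have e1 : w * f * w⁻¹ * f⁻¹ = w * (f * w⁻¹ * f⁻¹) := by group
      rw [e1]
      exact (O2 C).mul_mem hw (conj_mem_O2 hfC ((O2 C).inv_mem hw))
    have hyy := F.sq hyT
    have hyi := F.inv_self hyT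
    have k1 : e * f * y * (e * f)⁻¹ * y⁻¹ = (f * y) ^ 2 := by
      rw [mul_inv_rev, hfi, hei, hyi]
      calc e * f * y * (f * e) * y = e * f * y * (e * f) * y := by rw [hc]
        _ = e * f * (y * e) * f * y := by group
        _ = e * f * (e * y) * f * y := by rw [hye]
        _ = e * (f * e) * y * f * y := by group
        _ = e * (e * f) * y * f * y := by rw [hc]
        _ = (e * e) * (f * y * f * y) := by group
        _ = (f * y) ^ 2 := by rw [hee, one_mul, pow_two]; group
    have k2 : Odd (orderOf (e * f * y * (e * f)⁻¹ * y⁻¹)) := by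
      rw [k1]
      apply F.odd3
      rw [← pow_mul, mul_comm, pow_mul, F.ord3 hf hyT (fun h => hyf h.symm), one_pow]
    have k3 := commute_of_odd_comm hrO hyC k2
    have k4 : (f * y) ^ 2 = 1 := by
      rw [← k1, k3.eq]; group
    have k5 : f * y * (f * y) = 1 := by rw [← pow_two]; exact k4
    calc y * f = (f * y)⁻¹ := by rw [mul_inv_rev, hfi, hyi]
      _ = f * y := inv_eq_of_mul_eq_one_left k5
  · have k1 : Odd (orderOf (w * f * w⁻¹ * f⁻¹)) := by
      rw [hr]
      exact F.odd3 (F.ord3 heT hf hc)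
    exact (commute_of_odd_comm hw hfC k1).eq

end

section

variable {G : Type u} [Group G] [Finite G] {V K : Subgroup G} {T : Set G} (h : Cx V K) (F : FG K T)
include h F

/-- products of three commuting transpositions are not in `V` -/
theorem no3 {a b c : G} (ha : a ∈ T) (hb : b ∈ T) (hc : c ∈ T) (n1 : a ≠ b) (n2 : a ≠ c) (n3 : b ≠ c)
    (c1 : a * b = b * a) (c2 : a * c = c * a) (c3 : b * c = c * b) : a * b * c ∉ V := by
  intro hV
  obtain ⟨x, hxK, hx, hx1, hxi⟩ := F.f0.i13 a ha b hb c hc n1 n2 n3 c1 c2 c3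
  have ho : Odd (orderOf x) := Odd.of_dvd_nat (by decide) (orderOf_dvd_of_pow_eq_one hx)
  obtain ⟨w, hw, hw1, hwx⟩ := h.t0 hV ho hxi
  exact hw1 (F.t13 w x (h.sq hw) hxK hx hx1 hwx.eq)

/-- transpositions are not in `V` -/
theorem no1 {b : G} (hb : b ∈ T) : b ∉ V := by
  intro hV
  obtain ⟨c, hc, hcb, -, ccb, -⟩ := F.f0.nb b hb b hb
  obtain ⟨t, ht, -, htb⟩ := F.f0.opp c hc b hb hcb ccb
  have hbt : b * t ≠ t * b := fun h1 => htb h1.symm
  have hbi := F.inv_self hb
  have hti := F.inv_self ht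
  have hbb := F.sq hb
  have hinv : b * (b * t) * b⁻¹ = (b * t)⁻¹ := by
    rw [mul_inv_rev, hbi, hti, ← mul_assoc, hbb, one_mul]
  obtain ⟨w, hwV, hw1, hwx, hwO⟩ := h.t1 hV (F.f0.ne1 b hb) (F.odd3 (F.ord3 hb ht hbt)) hinv
  set C := centralizer ({b} : Set G) ⊓ centralizer ({b * t} : Set G) with hC
  have hCm : ∀ y : G, y * b = b * y → y * t = t * y → y ∈ C := by
    intro y h1 h2
    rw [hC, mem_inf, mem_centralizer_singleton_iff, mem_centralizer_singleton_iff]
    exact ⟨h1, ((show Commute y b from h1).mul_right (show Commute y t from h2)).eq⟩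
  have hwC := O2_le C hwO
  rw [hC, mem_inf, mem_centralizer_singleton_iff, mem_centralizer_singleton_iff] at hwC
  have wb : w * b = b * w := hwC.1
  have wt : w * t = t * w := by
    have e1 : t = b⁻¹ * (b * t) := by group
    have h1 : Commute w (b⁻¹ * (b * t)) := (show Commute w b from wb).inv_right.mul_right hwx
    rw [← e1] at h1
    exact h1.eq
  have conjc : ∀ f s : G, f * s = s * f → w * s = s * w → s * (w * f * w⁻¹) = w * f * w⁻¹ * s := by
    intro f s h1 h2
    have k1 : Commute s w := (show Commute w s from h2).symm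
    exact ((k1.mul_right (show Commute f s from h1).symm).mul_right k1.inv_right).eq
  have claim1 : ∀ f ∈ T, f * b = b * f → f * t = t * f → w * f = f * w := by
    intro f hf fb ft
    refine F.fixO2 hwO hf (hCm f fb ft) fun hne hcomm => ?_
    have e1 := conjc f b fb wb
    have e2 := conjc f t ft wt
    obtain ⟨y, hy, h1, h2, h3, h4⟩ := F.f0.L1 (w * f * w⁻¹) (F.conj w f hf) b hb t ht f hf e1 e2 hbt hne.symm
      hcomm.symm fb ft
    exact ⟨y, hy, hCm y h2 h3, h1, h4⟩
  obtain ⟨a, ha, -, -, ab, at'⟩ := F.f0.nb b hb t ht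
  have hwK : w ∈ K := F.kl w (h.sq hwV) a ha b hb t ht ab.symm at'.symm hbt (claim1 a ha ab at')
    fun y hy _ h2 h3 => claim1 y hy h2 h3
  have noC : ∀ f ∈ T, f * b = b * f → f * t = t * f → (∀ y ∈ T, y * b = b * y → y * t = t * y → y * f = f * y) →
      False := by
    intro f hf fb ft hall
    obtain ⟨f', hf', n, h1, h2, h3⟩ := F.f0.L5 f hf b hb t ht fb.symm ft.symm hbt
    obtain ⟨y, hy, -, k2, k3, k4⟩ := F.f0.L1 f' hf' b hb t ht f hf h2.symm h3.symm hbt n.symm h1.symm fb ft
    exact k4 (hall y hy k2 k3)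
  rcases F.f0.inv w hwK (h.sq hwV) with h1 | h1 | ⟨c, hc, d, hd, n, ccd, h1⟩ |
    ⟨c, hc, d, hd, f, hf, n1, n2, n3, c1, c2, c3, h1⟩
  · exact hw1 h1
  · exact noC w h1 wb wt fun y hy h2 h3 => (claim1 y hy h2 h3).symm
  · have k : ∀ y ∈ T, w * y = y * w → y * c = c * y := by
      intro y hy h2
      rw [h1] at h2
      exact (F.pairc hc hd hy n ccd h2.symm).1
    exact noC c hc (k b hb wb).symm (k t ht wt).symm fun y hy h2 h3 => k y hy (claim1 y hy h2 h3)
  · rw [h1] at hwV
    exact no3 h F hc hd hf n1 n2 n3 c1 c2 c3 hwV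

/-- products of two commuting transpositions are not in `V` -/
theorem no2 {a b : G} (ha : a ∈ T) (hb : b ∈ T) (hne : a ≠ b) (cab : a * b = b * a) : a * b ∉ V := by
  intro hV
  obtain ⟨t, ht, ta, htb⟩ := F.f0.opp a ha b hb hne cab
  have hbt : b * t ≠ t * b := fun h1 => htb h1.symm
  have hai := F.inv_self ha
  have hbi := F.inv_self hb
  have hti := F.inv_self ht
  have haa := F.sq ha
  have hbb := F.sq hb
  have hx3 := F.ord3 hb ht hbt
  have hxi : (b * t)⁻¹ = t * b := by rw [mul_inv_rev, hbi, hti]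
  have hax : a * (b * t) = b * t * a := by
    calc a * (b * t) = (a * b) * t := by group
      _ = b * (a * t) := by rw [cab]; group
      _ = b * t * a := by rw [← ta]; group
  have hatb : a * (t * b) * a = t * b := by
    calc a * (t * b) * a = (a * t) * (b * a) := by group
      _ = (t * a) * (a * b) := by rw [ta, cab]
      _ = t * (a * a) * b := by group
      _ = t * b := by rw [haa, mul_one]
  have hinv : a * b * (b * t) * (a * b)⁻¹ = (b * t)⁻¹ := by
    rw [hxi, mul_inv_rev, hai, hbi]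
    calc a * b * (b * t) * (b * a) = a * ((b * b) * t * b) * a := by group
      _ = t * b := by rw [hbb, one_mul, hatb]
  have hv1 : a * b ≠ 1 := by
    intro h1
    apply hne
    rw [← hbi]
    exact eq_inv_of_mul_eq_one_left h1
  obtain ⟨w, hwV, hw1, hwx, hwO⟩ := h.t1 hV hv1 (F.odd3 hx3) hinv
  set C := centralizer ({a * b} : Set G) ⊓ centralizer ({b * t} : Set G) with hC
  have hCm : ∀ y : G, y * a = a * y → y * b = b * y → y * t = t * y → y ∈ C := by
    intro y h1 h2 h3
    rw [hC, mem_inf, mem_centralizer_singleton_iff, mem_centralizer_singleton_iff]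
    exact ⟨((show Commute y a from h1).mul_right (show Commute y b from h2)).eq,
      ((show Commute y b from h2).mul_right (show Commute y t from h3)).eq⟩
  -- the elements of `C` commute with `a`, `b`, `t`
  have hCc : ∀ g ∈ C, g * a = a * g ∧ g * b = b * g ∧ g * t = t * g := by
    intro g hg
    rw [hC, mem_inf, mem_centralizer_singleton_iff, mem_centralizer_singleton_iff] at hg
    obtain ⟨h1, h2⟩ := hg
    have hgaT := F.conj g a ha
    have hgbT := F.conj g b hb
    have h3 : a * b = (g * a * g⁻¹) * (g * b * g⁻¹) := by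
      calc a * b = (a * b * g) * g⁻¹ := by group
        _ = (g * (a * b)) * g⁻¹ := by rw [h1]
        _ = _ := by group
    have h4 : (g * a * g⁻¹) * (g * b * g⁻¹) = (g * b * g⁻¹) * (g * a * g⁻¹) := by
      calc (g * a * g⁻¹) * (g * b * g⁻¹) = g * (a * b) * g⁻¹ := by group
        _ = g * (b * a) * g⁻¹ := by rw [cab]
        _ = _ := by group
    have hga : g * a * g⁻¹ = a := by
      rcases F.f0.uniq a ha b hb _ hgaT _ hgbT hne cab h4 h3 with h5 | h5
      · exact h5
      exfalso
      rw [h5] at h3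
      have h6 : g * b * g⁻¹ = a := by
        have : b * (g * b * g⁻¹) = b * a := by rw [← h3, cab]
        exact mul_left_cancel this
      -- `b` inverts `b t`, so `a` does
      have h7 : a * (b * t) * a⁻¹ = (b * t)⁻¹ := by
        have h8 : b * (b * t) * b⁻¹ = (b * t)⁻¹ := by
          rw [hxi, hbi, ← mul_assoc, hbb, one_mul]
        have h9 : g * (b * t) * g⁻¹ = b * t := by rw [h2]; group
        calc a * (b * t) * a⁻¹ = (g * b * g⁻¹) * (g * (b * t) * g⁻¹) * (g * b * g⁻¹)⁻¹ := by rw [h6, h9]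
          _ = g * (b * (b * t) * b⁻¹) * g⁻¹ := by group
          _ = g * (b * t)⁻¹ * g⁻¹ := by rw [h8]
          _ = (g * (b * t) * g⁻¹)⁻¹ := by group
          _ = (b * t)⁻¹ := by rw [h9]
      rw [hax, mul_inv_cancel_right] at h7
      apply hbt
      rw [h7, hxi]
    have hgb : g * b * g⁻¹ = b := by
      rw [hga] at h3
      exact (mul_left_cancel h3).symm
    have ga : g * a = a * g := mul_inv_eq_iff_eq_mul.1 hga
    have gb : g * b = b * g := mul_inv_eq_iff_eq_mul.1 hgb
    refine ⟨ga, gb, ?_⟩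
    have e1 : t = b⁻¹ * (b * t) := by group
    have h10 : Commute g (b⁻¹ * (b * t)) := (show Commute g b from gb).inv_right.mul_right h2
    rw [← e1] at h10
    exact h10.eq
  obtain ⟨wa, wb, wt⟩ := hCc w (O2_le C hwO)
  have conjc : ∀ f s : G, f * s = s * f → w * s = s * w → s * (w * f * w⁻¹) = w * f * w⁻¹ * s := by
    intro f s h1 h2
    have k1 : Commute s w := (show Commute w s from h2).symm
    exact ((k1.mul_right (show Commute f s from h1).symm).mul_right k1.inv_right).eq
  have claim1 : ∀ f ∈ T, f * a = a * f → f * b = b * f → f * t = t * f → w * f = f * w := by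
    intro f hf fa fb ft
    by_cases hfa : f = a
    · rw [hfa]; exact wa
    refine F.fixO2 hwO hf (hCm f fa fb ft) fun hen hcomm => ?_
    have e0 := conjc f a fa wa
    have e1 := conjc f b fb wb
    have e2 := conjc f t ft wt
    have hea : w * f * w⁻¹ ≠ a := by
      intro h1
      apply hfa
      have h2 : w * f * w⁻¹ = w * a * w⁻¹ := by rw [h1, wa]; group
      exact mul_left_cancel (mul_right_cancel h2)
    obtain ⟨y, hy, h1, h2, h3, h4, h5⟩ := F.f0.L2 a ha b hb t ht (w * f * w⁻¹) (F.conj w f hf) f hf cab.symm ta hbt hea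
      hfa hen e0.symm e1.symm e2.symm fa fb ft hcomm
    exact ⟨y, hy, hCm y h1 h2 h3, h4, h5⟩
  have hwK : w ∈ K := F.kl w (h.sq hwV) a ha b hb t ht cab.symm ta hbt wa claim1
  rcases F.f0.inv w hwK (h.sq hwV) with h1 | h1 | ⟨c, hc, d, hd, n, ccd, h1⟩ |
    ⟨c, hc, d, hd, f, hf, n1, n2, n3, c1, c2, c3, h1⟩
  · exact hw1 h1
  · exact no1 h F h1 hwV
  · have k : ∀ y ∈ T, w * y = y * w → y * c = c * y ∧ y * d = d * y := by
      intro y hy h2
      rw [h1] at h2
      exact F.pairc hc hd hy n ccd h2.symm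
    have noC : ∀ f ∈ T, f ≠ a → f * a = a * f → f * b = b * f → f * t = t * f →
        (∀ y ∈ T, w * y = y * w → y * f = f * y) → False := by
      intro f hf hfa fa fb ft hall
      obtain ⟨y, hy, k1, k2, k3, k4⟩ := F.f0.L1 a ha b hb t ht f hf cab.symm ta hbt hfa fa fb ft
      exact k4 (hall y hy (claim1 y hy k1 k2 k3))
    by_cases hca : c = a
    · have hda : d ≠ a := by
        rintro rfl
        exact n hca
      exact noC d hd hda (k a ha wa).2.symm (k b hb wb).2.symm (k t ht wt).2.symm fun y hy h2 => (k y hy h2).2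
    · exact noC c hc hca (k a ha wa).1.symm (k b hb wb).1.symm (k t ht wt).1.symm fun y hy h2 => (k y hy h2).1
  · rw [h1] at hwV
    exact no3 h F hc hd hf n1 n2 n3 c1 c2 c3 hwV

/-- **No counterexample.** -/
theorem false_of_cx : False := by
  obtain ⟨v, hv, hv1, hvK⟩ : ∃ v ∈ V, v ≠ 1 ∧ v ∈ K := by
    by_contra hcon
    push Not at hcon
    have h8 := h.card
    obtain ⟨v1, hv1, hv11⟩ : ∃ w ∈ V, w ≠ 1 := by
      by_contra hcon
      push Not at hcon
      exact h.V_ne_bot ((Subgroup.eq_bot_iff_forall V).2 hcon)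
    obtain ⟨v2, hv2, hv21, hv22⟩ : ∃ w ∈ V, w ≠ 1 ∧ w ≠ v1 := by
      by_contra hcon2
      push Not at hcon2
      have h1 : (V : Set G) ⊆ {1, v1} := by
        intro w hw
        by_cases hw1 : w = 1
        · left; exact hw1
        · right; exact hcon2 w hw hw1
      have h2 := Set.ncard_le_ncard h1 (Set.toFinite _)
      have h3 := Set.ncard_insert_le (1 : G) ({v1} : Set G)
      rw [Set.ncard_singleton] at h3
      have h4 : (V : Set G).ncard = Nat.card V := rfl
      omega
    refine hcon (v1 * v2) (V.mul_mem hv1 hv2) ?_ (F.two v1 v2 (hcon v1 hv1 hv11) (hcon v2 hv2 hv21))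
    intro h1
    apply hv22
    rw [← h.inv_eq hv1]
    exact eq_inv_of_mul_eq_one_right h1
  rcases F.f0.inv v hvK (h.sq hv) with h1 | h1 | ⟨c, hc, d, hd, n, ccd, h1⟩ |
    ⟨c, hc, d, hd, f, hf, n1, n2, n3, c1, c2, c3, h1⟩
  · exact hv1 h1
  · exact no1 h F h1 hv
  · rw [h1] at hv
    exact no2 h F hc hd n ccd hv
  · rw [h1] at hv
    exact no3 h F hc hd hf n1 n2 n3 c1 c2 c3 hv

end

end FG

open Cfsg.Agent.OddHalf.NI3.Ex.FiRow.Base (T kt)

/-- the facts hold in a minimal counterexample with `K` isomorphic to `Fi22` -/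
theorem exists_fg {G : Type u} [Group G] [Finite G] {V K : Subgroup G} (h : Cx V K) (e : ↥K ≃* Spor.Fi22) :
    ∃ T' : Set G, FG K T' := by
  obtain ⟨φ, hφ, hφK, hφg⟩ := h.exists_toAut e
  set ι : Spor.Fi22 →* G := K.subtype.comp e.symm.toMonoidHom with hι
  have hιi : Function.Injective ι := K.subtype_injective.comp e.symm.injective
  have hιv : ∀ s, ι s = (e.symm s : G) := fun s => rfl
  have hιK : ∀ s, ι s ∈ K := fun s => (e.symm s).2
  have hKι : ∀ x ∈ K, ∃ s, ι s = x := fun x hx => ⟨e ⟨x, hx⟩, by rw [hιv, e.symm_apply_apply]⟩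
  have hmap : (⊤ : Subgroup Spor.Fi22).map ι = K := by
    ext x
    constructor
    · rintro ⟨s, -, rfl⟩
      exact hιK s
    · intro hx
      obtain ⟨s, hs⟩ := hKι x hx
      exact ⟨s, mem_top _, hs⟩
  have rel : ∀ (g : G) (s : Spor.Fi22), g * ι s * g⁻¹ = ι (φ g s) := by
    intro g s
    obtain ⟨h1, h2⟩ := hφg g (e.symm s)
    rw [e.apply_symm_apply] at h2
    rw [h2, hιv, hιv, e.symm_apply_apply]
  have hφι : ∀ s : Spor.Fi22, φ (ι s) = MulAut.conj s := by
    intro s
    rw [hιv, hφK, e.apply_symm_apply]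
  have hin : ∀ g : G, ∀ s, φ g = MulAut.conj s → g ∈ K := by
    intro g s hs
    rw [← hφι] at hs
    rw [hφ hs]
    exact hιK s
  refine ⟨ι '' T, ?_, ?_, ?_, ?_, ?_⟩
  · have h1 := SK.f0.map ι hιi
    rwa [hmap] at h1
  · rintro g _ ⟨s, hs, rfl⟩
    rw [rel]
    exact ⟨_, kt.aut (φ g) s hs, rfl⟩
  · rintro w hw _ ⟨a, ha, rfl⟩ _ ⟨b, hb, rfl⟩ _ ⟨t, ht, rfl⟩ h1 h2 h3 h4 h5
    simp only [← map_mul, hιi.eq_iff, ne_eq] at h1 h2 h3
    have hfixed : ∀ s : Spor.Fi22, w * ι s = ι s * w → φ w s = s := by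
      intro s hs
      apply hιi
      rw [← rel, hs, mul_inv_cancel_right]
    obtain ⟨k, hk⟩ := FiKL.inner_of_fix (α := φ w) (by rw [← map_mul, hw, map_one]) ha hb ht h1 h2 h3
      (hfixed a h4) (by
        intro y hy k1 k2 k3
        apply hfixed
        exact h5 _ ⟨y, hy, rfl⟩ (by rw [← map_mul, k1, map_mul]) (by rw [← map_mul, k2, map_mul])
          (by rw [← map_mul, k3, map_mul]))
    exact hin w k hk
  · intro g g' hg hg'
    obtain ⟨x, hx⟩ := kt.out (φ g) (φ g') (fun x hx => hg (hin g x hx)) (fun x hx => hg' (hin g' x hx))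
    apply hin _ x
    rw [map_mul, hx]
  · intro w x hw hx hx13 hx1 hwx
    obtain ⟨x', rfl⟩ := hKι x hx
    have hx13' : x' ^ 13 = 1 := hιi (by rw [map_pow, hx13, map_one])
    have hx1' : x' ≠ 1 := fun h1 => hx1 (by rw [h1, map_one])
    have ho : orderOf x' = 13 := by
      have : Fact (Nat.Prime 13) := ⟨by norm_num⟩
      exact orderOf_eq_prime hx13' hx1'
    by_cases hwK : w ∈ K
    · obtain ⟨w', rfl⟩ := hKι w hwK
      rw [← map_mul, ← map_mul, hιi.eq_iff] at hwx
      have h1 := Cfsg.Agent.PreUniqCo.FiTwentyTwo.thirteen (MulEquiv.refl Spor.Fi22) ho hwx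
      have h2 : w' ^ 2 = 1 := by
        rw [pow_two]
        apply hιi
        rw [map_mul, hw, map_one]
      have h3 : w' = 1 := by
        calc w' = w' ^ 13 * (w' ^ 2) ^ (-6 : ℤ) := by group
          _ = 1 := by rw [h1, h2]; group
      rw [h3, map_one]
    · exfalso
      have hQ := Cfsg.Agent.H323.FiOut.q_all (α := φ w) (by rw [← map_mul, hw, map_one])
        (by rintro ⟨k, hk⟩; exact hwK (hin w k hk))
      apply hQ.1
      have h1 : φ w x' = x' := by
        apply hιi
        rw [← rel, hwx, mul_inv_cancel_right]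
      have h2 : x' ∈ fixedSubgroup (φ w) := h1
      have h3 := orderOf_dvd_natCard (⟨x', h2⟩ : ↥(fixedSubgroup (φ w)))
      rwa [Subgroup.orderOf_mk, ho] at h3

/-- **S3010: the row `Fi22`.** -/
theorem Fi22.dead : DeadS.{u} (fun K _ => Cfsg.Spor.IsoFi22 K) := by
  intro G _ _ V K h hK
  obtain ⟨e⟩ := hK
  obtain ⟨T', F⟩ := exists_fg h e
  exact F.false_of_cx h

end Cfsg.Agent.H359.SK
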