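import Cfsg.Agent.H359.SK.FiKL
import Cfsg.Agent.H323.FiOut

/-!
# The facts on the transpositions of `Fi22` used for the Sidki pairs (helper359)

`F0 K T` : `K` a subgroup of `G` isomorphic to `Fi22`, `T ⊆ K` its class of transpositions.
-/

set_option autoImplicit false
set_option linter.unusedSectionVars false

namespace Cfsg.Agent.H359.SK

open Subgroup Cfsg

universe u v

/-- inner facts -/
structure F0 {G : Type*} [Group G] (K : Subgroup G) (T : Set G) : Prop where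
  sub : ∀ x ∈ T, x ∈ K
  sq : ∀ x ∈ T, x * x = 1
  ne1 : ∀ x ∈ T, x ≠ 1
  three : ∀ x ∈ T, ∀ y ∈ T, x * y = y * x ∨ x * y * x = y * x * y
  uniq : ∀ x ∈ T, ∀ y ∈ T, ∀ u ∈ T, ∀ v ∈ T, x ≠ y → x * y = y * x → u * v = v * u → x * y = u * v →
    u = x ∨ u = y
  opp : ∀ a ∈ T, ∀ b ∈ T, a ≠ b → a * b = b * a → ∃ t ∈ T, t * a = a * t ∧ t * b ≠ b * t
  nb : ∀ x ∈ T, ∀ y ∈ T, ∃ c ∈ T, c ≠ x ∧ c ≠ y ∧ c * x = x * c ∧ c * y = y * c
  L1 : ∀ a ∈ T, ∀ b ∈ T, ∀ t ∈ T, ∀ f ∈ T, b * a = a * b → t * a = a * t → b * t ≠ t * b → f ≠ a → f * a = a * f →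
    f * b = b * f → f * t = t * f → ∃ y ∈ T, y * a = a * y ∧ y * b = b * y ∧ y * t = t * y ∧ y * f ≠ f * y
  L2 : ∀ a ∈ T, ∀ b ∈ T, ∀ t ∈ T, ∀ e ∈ T, ∀ f ∈ T, b * a = a * b → t * a = a * t → b * t ≠ t * b → e ≠ a → f ≠ a →
    e ≠ f → e * a = a * e → e * b = b * e → e * t = t * e → f * a = a * f → f * b = b * f → f * t = t * f →
    e * f = f * e → ∃ y ∈ T, y * a = a * y ∧ y * b = b * y ∧ y * t = t * y ∧ y * e = e * y ∧ y * f ≠ f * y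
  L5 : ∀ a ∈ T, ∀ b ∈ T, ∀ t ∈ T, b * a = a * b → t * a = a * t → b * t ≠ t * b → ∃ f ∈ T, f ≠ a ∧ f * a = a * f ∧
    f * b = b * f ∧ f * t = t * f
  inv : ∀ f ∈ K, f * f = 1 → f = 1 ∨ f ∈ T ∨ (∃ a ∈ T, ∃ b ∈ T, a ≠ b ∧ a * b = b * a ∧ f = a * b) ∨
    ∃ a ∈ T, ∃ b ∈ T, ∃ c ∈ T, a ≠ b ∧ a ≠ c ∧ b ≠ c ∧ a * b = b * a ∧ a * c = c * a ∧ b * c = c * b ∧
      f = a * b * c
  i13 : ∀ a ∈ T, ∀ b ∈ T, ∀ c ∈ T, a ≠ b → a ≠ c → b ≠ c → a * b = b * a → a * c = c * a → b * c = c * b →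
    ∃ x ∈ K, x ^ 13 = 1 ∧ x ≠ 1 ∧ (a * b * c) * x * (a * b * c)⁻¹ = x⁻¹

section base

open Cfsg.Agent.R01 Cfsg.Agent.R01.Label Cfsg.Agent.R01.Lifts
open Cfsg.Agent.OddHalf.NI3.Ex.FiRow.Base (T kt)

theorem mem_cent' {d b : Spor.Fi22} (h : b * d = d * b) : b ∈ centralizer ({d} : Set Spor.Fi22) :=
  mem_centralizer_singleton_iff.2 h

/-- **The facts for `Fi22`.** -/
theorem f0 : F0 (⊤ : Subgroup Spor.Fi22) T where
  sub _ _ := mem_top _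
  sq := kt.sq
  ne1 := kt.ne1
  three := kt.three
  uniq := kt.uniq
  opp := by
    intro a ha b hb hab cab
    obtain ⟨p, hp⟩ := kt.nonempty
    obtain ⟨π, lift, L, hiff⟩ := Fi22Facts.loc p hp
    obtain ⟨q, hq, r, hr, hqr⟩ := Cfsg.Agent.OddHalf.D8.Fi22.Opp.exists_ncom L
    have hqT : (q : Spor.Fi22) ∈ T := (hiff q).2 (Or.inr hq)
    have hrT : (r : Spor.Fi22) ∈ T := (hiff r).2 (Or.inr hr)
    have hpq : p ≠ (q : Spor.Fi22) := by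
      intro h
      have h1 : Cfsg.Agent.R01.Start.zel p = q := Subtype.ext h
      apply L.z_notMem
      rw [h1]
      exact hq
    obtain ⟨g, h1, h2⟩ := kt.trans2 p hp q hqT a ha b hb hpq hab (AllOfLab.zel_comm q) cab
    refine ⟨g * r * g⁻¹, kt.conj g _ hrT, ?_, ?_⟩
    · rw [← h1]
      have h3 := AllOfLab.zel_comm r
      calc g * r * g⁻¹ * (g * p * g⁻¹) = g * (r * p) * g⁻¹ := by group
        _ = g * (p * r) * g⁻¹ := by rw [h3]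
        _ = _ := by group
    · rw [← h2]
      intro h3
      apply hqr
      apply AllOfLab.comm_coe.2
      have h4 : g * ((r : Spor.Fi22) * q) * g⁻¹ = g * (q * r) * g⁻¹ := by
        calc g * ((r : Spor.Fi22) * q) * g⁻¹ = g * r * g⁻¹ * (g * q * g⁻¹) := by group
          _ = _ := h3
          _ = _ := by group
      exact (mul_left_cancel (mul_right_cancel h4)).symm
  nb := kt.nb
  L1 := by
    intro a ha b hb t ht f hf ba ta bt fa0 fa fb ft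
    obtain ⟨π, lift, L, hiff⟩ := Fi22Facts.loc a ha
    have bn : b ≠ a := by rintro rfl; exact bt ta.symm
    have tn : t ≠ a := by rintro rfl; exact bt ba
    obtain ⟨y, hy, h1, h2, h3⟩ := FiLink.exists_not' L (AllOfLab.mem_Dset_of hiff hb ba bn)
      (AllOfLab.mem_Dset_of hiff ht ta tn) (AllOfLab.mem_Dset_of hiff hf fa fa0)
      (fun h => bt (AllOfLab.comm_coe.1 h)) (AllOfLab.comm_coe.2 fb) (AllOfLab.comm_coe.2 ft)
    exact ⟨y, (hiff y).2 (Or.inr hy), (AllOfLab.zel_comm y).symm, AllOfLab.comm_coe.1 h1, AllOfLab.comm_coe.1 h2,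
      fun h => h3 (AllOfLab.comm_coe.2 h)⟩
  L2 := by
    intro a ha b hb t ht e he f hf ba ta bt ea0 fa0 ef0 ea eb et fa fb ft ef
    obtain ⟨π, lift, L, hiff⟩ := Fi22Facts.loc a ha
    have bn : b ≠ a := by rintro rfl; exact bt ta.symm
    have tn : t ≠ a := by rintro rfl; exact bt ba
    obtain ⟨y, hy, h1, h2, h3, h4⟩ := FiLink.exists_not L (AllOfLab.mem_Dset_of hiff hb ba bn)
      (AllOfLab.mem_Dset_of hiff ht ta tn) (AllOfLab.mem_Dset_of hiff he ea ea0) (AllOfLab.mem_Dset_of hiff hf fa fa0)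
      (fun h => bt (AllOfLab.comm_coe.1 h)) (AllOfLab.comm_coe.2 eb) (AllOfLab.comm_coe.2 et)
      (AllOfLab.comm_coe.2 fb) (AllOfLab.comm_coe.2 ft) (AllOfLab.comm_coe.2 ef)
      (fun h => ef0 (congrArg Subtype.val h))
    exact ⟨y, (hiff y).2 (Or.inr hy), (AllOfLab.zel_comm y).symm, AllOfLab.comm_coe.1 h1, AllOfLab.comm_coe.1 h2,
      AllOfLab.comm_coe.1 h3, fun h => h4 (AllOfLab.comm_coe.2 h)⟩
  L5 := by
    intro a ha b hb t ht ba ta bt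
    obtain ⟨π, lift, L, hiff⟩ := Fi22Facts.loc a ha
    have bn : b ≠ a := by rintro rfl; exact bt ta.symm
    have tn : t ≠ a := by rintro rfl; exact bt ba
    obtain ⟨u, w, n0, w0, iso, isow, ind, cu, cwb, cwt⟩ := FiLink.exists_line L
      (AllOfLab.mem_Dset_of hiff hb ba bn) (AllOfLab.mem_Dset_of hiff ht ta tn)
      (fun h => bt (AllOfLab.comm_coe.1 h))
    have hD := Lab.mem_D (lift := lift) w0 isow
    refine ⟨lift w, (hiff _).2 (Or.inr hD), ?_, (AllOfLab.zel_comm _).symm, AllOfLab.comm_coe.1 cwb,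
      AllOfLab.comm_coe.1 cwt⟩
    intro h
    have h1 : lift w = Cfsg.Agent.R01.Start.zel a := Subtype.ext h
    apply L.z_notMem
    rw [← h1]
    exact hD
  inv f _ hf := kt.inv f hf
  i13 := by
    intro a ha b hb c hc hab hac hbc cab cac cbc
    obtain ⟨a', ha', b', hb', c', hc', nab, nac, nbc, kab, kac, kbc, x, hx, hx1, hxi⟩ := FiThirteen.exists_13
    obtain ⟨g, h1, h2, h3⟩ := kt.trans3 a' ha' b' hb' c' hc' a ha b hb c hc nab nac nbc hab hac hbc kab kac kbc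
      cab cac cbc
    refine ⟨g * x * g⁻¹, mem_top _, ?_, ?_, ?_⟩
    · rw [conj_pow, hx, mul_one, mul_inv_cancel]
    · intro h
      apply hx1
      rw [mul_inv_eq_one] at h
      exact mul_left_cancel (h.trans (mul_one g).symm)
    · rw [← h1, ← h2, ← h3]
      calc g * a' * g⁻¹ * (g * b' * g⁻¹) * (g * c' * g⁻¹) * (g * x * g⁻¹) *
            (g * a' * g⁻¹ * (g * b' * g⁻¹) * (g * c' * g⁻¹))⁻¹
          = g * ((a' * b' * c') * x * (a' * b' * c')⁻¹) * g⁻¹ := by group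
        _ = g * x⁻¹ * g⁻¹ := by rw [hxi]
        _ = (g * x * g⁻¹)⁻¹ := by group

end base

section map

variable {X : Type*} [Group X] {G : Type*} [Group G] {K : Subgroup X} {T : Set X}

theorem F0.map (h : F0 K T) (ι : X →* G) (hι : Function.Injective ι) : F0 (K.map ι) (ι '' T) where
  sub := by
    rintro _ ⟨x, hx, rfl⟩
    exact ⟨x, h.sub x hx, rfl⟩
  sq := by
    rintro _ ⟨x, hx, rfl⟩
    rw [← map_mul, h.sq x hx, map_one]
  ne1 := by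
    rintro _ ⟨x, hx, rfl⟩ h1
    exact h.ne1 x hx (hι (by rw [h1, map_one]))
  three := by
    rintro _ ⟨x, hx, rfl⟩ _ ⟨y, hy, rfl⟩
    rcases h.three x hx y hy with h1 | h1
    · left; rw [← map_mul, h1, map_mul]
    · right; rw [← map_mul, ← map_mul, h1, map_mul, map_mul]
  uniq := by
    rintro _ ⟨x, hx, rfl⟩ _ ⟨y, hy, rfl⟩ _ ⟨u, hu, rfl⟩ _ ⟨v, hv, rfl⟩ n c1 c2 e
    simp only [← map_mul] at c1 c2 e
    rcases h.uniq x hx y hy u hu v hv (fun h1 => n (by rw [h1])) (hι c1) (hι c2) (hι e) with h1 | h1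
    · left; rw [h1]
    · right; rw [h1]
  opp := by
    rintro _ ⟨a, ha, rfl⟩ _ ⟨b, hb, rfl⟩ n c1
    simp only [← map_mul] at c1
    obtain ⟨t, ht, h1, h2⟩ := h.opp a ha b hb (fun h1 => n (by rw [h1])) (hι c1)
    refine ⟨ι t, ⟨t, ht, rfl⟩, ?_, ?_⟩
    · rw [← map_mul, h1, map_mul]
    · intro h3
      rw [← map_mul, ← map_mul] at h3
      exact h2 (hι h3)
  nb := by
    rintro _ ⟨a, ha, rfl⟩ _ ⟨b, hb, rfl⟩
    obtain ⟨c, hc, h1, h2, h3, h4⟩ := h.nb a ha b hb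
    exact ⟨ι c, ⟨c, hc, rfl⟩, fun h5 => h1 (hι h5), fun h5 => h2 (hι h5), by rw [← map_mul, h3, map_mul],
      by rw [← map_mul, h4, map_mul]⟩
  L1 := by
    rintro _ ⟨a, ha, rfl⟩ _ ⟨b, hb, rfl⟩ _ ⟨t, ht, rfl⟩ _ ⟨f, hf, rfl⟩ h1 h2 h3 h4 h5 h6 h7
    simp only [← map_mul, hι.eq_iff, ne_eq] at h1 h2 h3 h4 h5 h6 h7
    obtain ⟨y, hy, k1, k2, k3, k4⟩ := h.L1 a ha b hb t ht f hf h1 h2 h3 h4 h5 h6 h7
    refine ⟨ι y, ⟨y, hy, rfl⟩, ?_⟩
    simp only [← map_mul, hι.eq_iff, ne_eq]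
    exact ⟨k1, k2, k3, k4⟩
  L2 := by
    rintro _ ⟨a, ha, rfl⟩ _ ⟨b, hb, rfl⟩ _ ⟨t, ht, rfl⟩ _ ⟨e, he, rfl⟩ _ ⟨f, hf, rfl⟩ h1 h2 h3 h4 h5 h6 h7 h8 h9 h10 h11
      h12 h13
    simp only [← map_mul, hι.eq_iff, ne_eq] at h1 h2 h3 h4 h5 h6 h7 h8 h9 h10 h11 h12 h13
    obtain ⟨y, hy, k1, k2, k3, k4, k5⟩ := h.L2 a ha b hb t ht e he f hf h1 h2 h3 h4 h5 h6 h7 h8 h9 h10 h11 h12 h13
    refine ⟨ι y, ⟨y, hy, rfl⟩, ?_⟩
    simp only [← map_mul, hι.eq_iff, ne_eq]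
    exact ⟨k1, k2, k3, k4, k5⟩
  L5 := by
    rintro _ ⟨a, ha, rfl⟩ _ ⟨b, hb, rfl⟩ _ ⟨t, ht, rfl⟩ h1 h2 h3
    simp only [← map_mul, hι.eq_iff, ne_eq] at h1 h2 h3
    obtain ⟨y, hy, k1, k2, k3, k4⟩ := h.L5 a ha b hb t ht h1 h2 h3
    refine ⟨ι y, ⟨y, hy, rfl⟩, ?_⟩
    simp only [← map_mul, hι.eq_iff, ne_eq]
    exact ⟨k1, k2, k3, k4⟩
  inv := by
    rintro _ ⟨f, hf, rfl⟩ hff
    rw [← map_mul] at hff
    rcases h.inv f hf (hι (by rw [hff, map_one])) with h1 | h1 | ⟨a, ha, b, hb, n, c, h1⟩ |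
      ⟨a, ha, b, hb, c, hc, n1, n2, n3, c1, c2, c3, h1⟩
    · left; rw [h1, map_one]
    · right; left; exact ⟨f, h1, rfl⟩
    · right; right; left
      exact ⟨ι a, ⟨a, ha, rfl⟩, ι b, ⟨b, hb, rfl⟩, fun h2 => n (hι h2), by rw [← map_mul, c, map_mul],
        by rw [h1, map_mul]⟩
    · right; right; right
      exact ⟨ι a, ⟨a, ha, rfl⟩, ι b, ⟨b, hb, rfl⟩, ι c, ⟨c, hc, rfl⟩, fun h2 => n1 (hι h2), fun h2 => n2 (hι h2),
        fun h2 => n3 (hι h2), by rw [← map_mul, c1, map_mul], by rw [← map_mul, c2, map_mul],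
        by rw [← map_mul, c3, map_mul], by rw [h1, map_mul, map_mul]⟩
  i13 := by
    rintro _ ⟨a, ha, rfl⟩ _ ⟨b, hb, rfl⟩ _ ⟨c, hc, rfl⟩ h1 h2 h3 h4 h5 h6
    simp only [← map_mul, hι.eq_iff, ne_eq] at h1 h2 h3 h4 h5 h6
    obtain ⟨x, hx, k1, k2, k3⟩ := h.i13 a ha b hb c hc h1 h2 h3 h4 h5 h6
    refine ⟨ι x, ⟨x, hx, rfl⟩, by rw [← map_pow, k1, map_one], fun h7 => k2 (hι (by rw [h7, map_one])), ?_⟩
    simp only [← map_mul, ← map_inv, hι.eq_iff]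
    exact k3

end map

end Cfsg.Agent.H359.SK
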