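import Cfsg.Agent.LThreeFi22.Five

/-!
# `Fi22`: the product of three commuting transpositions inverts an element of order 13 (helper359)

`v = b d f i` and `v' = c e g h` (commuting nodes of the diagram): `(v v') ^ 13 = 1`, and `v` is the product of three
transpositions (the heptad of `b d f i`).
-/

set_option autoImplicit false

namespace Cfsg.Agent.H359.SK.FiThirteen

open Cfsg Cfsg.Agent.Fischer Cfsg.Agent.Fischer.Abstract Cfsg.Agent.Fischer.Centralizer
  Cfsg.Agent.Fischer.Group22 Cfsg.Agent.Fischer.Rank22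
open Cfsg.Agent.R01.Fi22Facts
open Cfsg.Agent.R01
open Cfsg.Agent.LThreeFi22.Five (el el_append one_of_chk)

open Data22.Gen in
/-- the first transposition -/
def cA : CW := ([a, b, c, d, h, i, e, b, c, d, h, f, e, d, c, b], a)

open Data22.Gen in
/-- the second transposition -/
def cB : CW := ([a, b, c, d, h, i, d, h, c, d, e, b, c, d, h, f, e, d, c, b], a)

open Data22.Gen in
/-- the third transposition -/
def cC : CW := ([a, b, c, d, h, i, e, d, h, f, e, d], c)

open Data22.Gen in
theorem prod_chk : Cert.relCheck Data22.nx (nat_lit 54) (nat_lit 65)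
    (([cA, cB, cC, ([], i), ([], f), ([], d), ([], b)] : List CW).map word).flatten = true := by
  decide +kernel

theorem com_AB : Nat.beq (Cert.walk Data22.nx (word cA).reverse (num cB)) (num cB) = true := by
  decide +kernel

theorem com_AC : Nat.beq (Cert.walk Data22.nx (word cA).reverse (num cC)) (num cC) = true := by
  decide +kernel

theorem com_BC : Nat.beq (Cert.walk Data22.nx (word cB).reverse (num cC)) (num cC) = true := by
  decide +kernel

theorem ne_AB : Nat.beq (num cA) (num cB) = false := by decide +kernel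

theorem ne_AC : Nat.beq (num cA) (num cC) = false := by decide +kernel

theorem ne_BC : Nat.beq (num cB) (num cC) = false := by decide +kernel

open Data22.Gen in
/-- the word of the element of order 13 -/
def xw : List Data22.Gen := [b, d, f, i, c, e, g, h]

theorem x_chk : Cert.relCheck Data22.nx (nat_lit 54) (nat_lit 65)
    (xw ++ xw ++ xw ++ xw ++ xw ++ xw ++ xw ++ xw ++ xw ++ xw ++ xw ++ xw ++ xw) = true := by
  decide +kernel

theorem x_ne : Nat.beq (Cert.walk Data22.nx xw.reverse (nat_lit 0)) (nat_lit 0) = false := by decide +kernel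

open Data22.Gen in
theorem v_chk : Cert.relCheck Data22.nx (nat_lit 54) (nat_lit 65) [b, d, f, i, b, d, f, i] = true := by
  decide +kernel

open Data22.Gen in
theorem v2_chk : Cert.relCheck Data22.nx (nat_lit 54) (nat_lit 65) [c, e, g, h, c, e, g, h] = true := by
  decide +kernel

open Data22.Gen in
/-- the involution -/
def vw : List Data22.Gen := [b, d, f, i]

open Data22.Gen in
/-- the other involution -/
def vw2 : List Data22.Gen := [c, e, g, h]

theorem xw_eq : el xw = el vw * el vw2 := el_append vw vw2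

theorem v_sq : el vw * el vw = 1 := by
  rw [← el_append]
  exact one_of_chk v_chk

theorem v2_sq : el vw2 * el vw2 = 1 := by
  rw [← el_append]
  exact one_of_chk v2_chk

theorem x_pow : el xw ^ 13 = 1 := by
  have h := one_of_chk x_chk
  simp only [el_append] at h
  rw [← h]
  simp only [pow_succ, pow_zero, one_mul]

theorem x_ne_one : el xw ≠ 1 := by
  intro h
  have h1 : ((el xw • (x0 : X) : X) : ℕ) = Cert.walk Data22.nx xw.reverse (x0 : X) := Fi22Loc.val_word _ _
  rw [h, one_smul] at h1
  have h2 : Nat.beq (Cert.walk Data22.nx xw.reverse (nat_lit 0)) (nat_lit 0) = true := by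
    have h3 : ((x0 : X) : ℕ) = nat_lit 0 := rfl
    rw [h3] at h1
    rw [← h1, Nat.beq_refl]
  rw [x_ne] at h2
  exact absurd h2 (by decide)

open Data22.Gen in
theorem v_eq : R.t (ptw cA) * R.t (ptw cB) * R.t (ptw cC) = el vw := by
  have h := prod_of_chk prod_chk
  have e : ∀ s : Data22.Gen, R.t (ptw ([], s)) = g s := by
    intro s
    rw [t_ptw]
    simp [word]
  simp only [List.map_cons, List.map_nil, List.prod_cons, List.prod_nil, mul_one, e] at h
  have h1 : el vw = g b * (g d * (g f * g i)) := by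
    simp [el, vw]
  have hv := v_sq
  have h2 : (R.t (ptw cA) * R.t (ptw cB) * R.t (ptw cC)) * (g i * (g f * (g d * g b))) = 1 := by
    rw [← h]; group
  have gsq : ∀ s : Data22.Gen, g s * g s = 1 := by
    intro s
    rw [← e]
    exact R.sq' _
  have h3 : (g i * (g f * (g d * g b))) * el vw = 1 := by
    rw [h1]
    calc (g i * (g f * (g d * g b))) * (g b * (g d * (g f * g i)))
        = g i * (g f * (g d * (g b * g b) * g d) * g f) * g i := by group
      _ = 1 := by rw [gsq, mul_one, gsq, mul_one, gsq, mul_one, gsq]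
  calc R.t (ptw cA) * R.t (ptw cB) * R.t (ptw cC)
      = R.t (ptw cA) * R.t (ptw cB) * R.t (ptw cC) * ((g i * (g f * (g d * g b))) * el vw) := by rw [h3, mul_one]
    _ = (R.t (ptw cA) * R.t (ptw cB) * R.t (ptw cC) * (g i * (g f * (g d * g b)))) * el vw := by group
    _ = el vw := by rw [h2, one_mul]

/-- **A product of three commuting transpositions inverting an element of order 13.** -/
theorem exists_13 : ∃ a ∈ T, ∃ b ∈ T, ∃ c ∈ T, a ≠ b ∧ a ≠ c ∧ b ≠ c ∧ a * b = b * a ∧ a * c = c * a ∧ b * c = c * b ∧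
    ∃ x : Spor.Fi22, x ^ 13 = 1 ∧ x ≠ 1 ∧ (a * b * c) * x * (a * b * c)⁻¹ = x⁻¹ := by
  refine ⟨E (R.t (ptw cA)), mem_T_iff.2 ⟨_, rfl⟩, E (R.t (ptw cB)), mem_T_iff.2 ⟨_, rfl⟩, E (R.t (ptw cC)),
    mem_T_iff.2 ⟨_, rfl⟩, fun h => ne_of_chk ne_AB (E.injective h), fun h => ne_of_chk ne_AC (E.injective h),
    fun h => ne_of_chk ne_BC (E.injective h), com_iff.2 (com_of_chk com_AB), com_iff.2 (com_of_chk com_AC),
    com_iff.2 (com_of_chk com_BC), E (el xw), ?_, ?_, ?_⟩
  · rw [← map_pow, x_pow, map_one]
  · intro h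
    exact x_ne_one (E.injective (by rw [h, map_one]))
  · rw [← map_mul, ← map_mul, v_eq, ← map_inv, ← map_mul, ← map_mul, ← map_inv, xw_eq]
    congr 1
    have h1 : (el vw)⁻¹ = el vw := inv_eq_of_mul_eq_one_left v_sq
    have h2 : (el vw2)⁻¹ = el vw2 := inv_eq_of_mul_eq_one_left v2_sq
    rw [mul_inv_rev, h1, h2, ← mul_assoc, v_sq, one_mul]

end Cfsg.Agent.H359.SK.FiThirteen
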