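import Cfsg.Agent.H359.SK.FiLink
import Cfsg.Agent.H359.SK.FiThirteen
import Cfsg.Agent.OddHalf.NI3.Ex.FiRow.Outer

/-!
# `Fi22`: an involutory automorphism fixing `a` and all transpositions commuting with `a`, `b`, `t` is inner (helper359)

`b`, `t` commute with `a` but not with each other.
-/

set_option autoImplicit false
set_option linter.unusedSectionVars false

namespace Cfsg.Agent.H359.SK.FiKL

open Subgroup Cfsg Cfsg.Agent.R01
open Cfsg.Agent.R01.Label Cfsg.Agent.R01.Lifts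
open Cfsg.Agent.R01.Start (zel)
open Cfsg.Agent.R01.ComLabel (Iso)
open Cfsg.Agent.LieClassical.HermBasic Cfsg.Agent.SporadicStructure.UnitTwo
open Cfsg.Agent.OddHalf.NI3.Ex.FiRow.Base Cfsg.Agent.OddHalf.NI3.Ex.FiRow.Semi
open Cfsg.Agent.U62.Semi
open Cfsg.Agent.Fischer.Unit22 (hF)

theorem inner_of_fix {α : MulAut Spor.Fi22} (hα : α * α = 1) {a b t : Spor.Fi22} (ha : a ∈ T) (hb : b ∈ T) (ht : t ∈ T)
    (hba : b * a = a * b) (hta : t * a = a * t) (hbt : b * t ≠ t * b) (hfa : α a = a)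
    (hfix : ∀ y ∈ T, y * a = a * y → y * b = b * y → y * t = t * y → α y = y) : ∃ k, α = MulAut.conj k := by
  obtain ⟨π, lift, e, φ, he, D⟩ := exists_dat hα (t := a) ⟨ha, hfa⟩
  rcases he with rfl | rfl
  · exact D.inner
  exfalso
  have L := D.lab
  have bn : b ≠ a := by
    rintro rfl
    exact hbt hta.symm
  have tn : t ≠ a := by
    rintro rfl
    exact hbt hba
  obtain ⟨u, w, n0, w0, iso, isow, ind, cu, cwb, cwt⟩ := FiLink.exists_line L
    (AllOfLab.mem_Dset_of D.mem hb hba bn) (AllOfLab.mem_Dset_of D.mem ht hta tn)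
    (fun h => hbt (AllOfLab.comm_coe.1 h))
  have key : ∀ v : Fin 6 → SporRec.GF4.F4, v ≠ 0 → hermForm 6 SporRec.GF4.F4 2 v v = 0 →
      Commute (lift v) ⟨b, mem_centralizer_singleton_iff.2 hba⟩ → Commute (lift v) ⟨t, mem_centralizer_singleton_iff.2 hta⟩ →
      ∃ c : SporRec.GF4.F4, c ≠ 0 ∧ φ v = c • v := by
    intro v hv0 hv h1 h2
    have hi : Iso SporRec.GF4.F4 v := ⟨hv0, hv⟩
    have h3 := hfix (lift v : Spor.Fi22) ((D.mem _).2 (Or.inr (Lab.mem_D hv0 hv))) (AllOfLab.zel_comm _).symm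
      (AllOfLab.comm_coe.1 h1) (AllOfLab.comm_coe.1 h2)
    rw [D.act v hi] at h3
    have h4 : lift v = lift (φ v) := Subtype.ext h3.symm
    have hφi := D.sem.iso hF (Or.inr rfl) hi
    exact (L.lift_eq_iff hv hφi.2 hv0 hφi.1).1 h4
  obtain ⟨cw, hcw0, hcw⟩ := key w w0 isow cwb cwt
  obtain ⟨c0, hc0, hc0'⟩ := key (u + (0 : SporRec.GF4.F4) • w) (n0 0) (iso 0) (cu 0).1 (cu 0).2
  rw [zero_smul, add_zero] at hc0'
  have h5 : ∀ k : SporRec.GF4.F4, k ^ 2 * cw = c0 * k := by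
    intro k
    obtain ⟨c, hc, hc'⟩ := key (u + k • w) (n0 k) (iso k) (cu k).1 (cu k).2
    rw [D.sem.add, D.sem.smul, hc0', hcw] at hc'
    have h6 : (c0 - c) • u + (k ^ 2 * cw - c * k) • w = 0 := by
      rw [sub_smul, sub_smul, mul_smul, mul_smul]
      have h7 : c0 • u + k ^ 2 • cw • w - (c • (u + k • w)) = 0 := sub_eq_zero.2 hc'
      rw [smul_add] at h7
      rw [← h7]
      abel
    obtain ⟨h8, h9⟩ := ind _ _ h6
    linear_combination h9 + (-k) * h8
  obtain ⟨ω, hω⟩ := exists_omega hF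
  have e1 := h5 1
  have e2 := h5 ω
  have h2 : (2 : SporRec.GF4.F4) = 0 := two_eq_zero hF
  have e3 : cw * 1 = 0 := by linear_combination (-1 : SporRec.GF4.F4) * e2 + ω * e1 + cw * hω - cw * ω * h2
  rw [mul_one] at e3
  exact hcw0 e3

end Cfsg.Agent.H359.SK.FiKL
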