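import Cfsg.Agent.OddHalf.D8.Fi22.KTrans

/-!
# The transpositions of `Fi22` commuting with `a` and with two noncommuting ones (helper359)

`b`, `t` labelled by isotropic vectors, not commuting. `exists_not` : for commuting `e ≠ f` commuting with `b` and `t`
some labelled `y` commutes with `b`, `t`, `e` but not with `f`. `exists_line` : a totally isotropic line orthogonal to `b`, `t`.
-/

set_option autoImplicit false
set_option linter.unusedSectionVars false
set_option linter.unusedSimpArgs false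

namespace Cfsg.Agent.H359.SK.FiLink

open Cfsg Cfsg.Agent.R01 Cfsg.Agent.R01.FiFusion Cfsg.Agent.R01.FiFacts
open Cfsg.Agent.R01.Label Cfsg.Agent.R01.InvForm Cfsg.Agent.R01.Start Cfsg.Agent.R01.Lifts
open Cfsg.Agent.LieClassical.HermBasic Cfsg.Agent.SporadicStructure.UnitTwo
open Cfsg.Agent.ClassicalGeometry.UnitTransv
open Cfsg.Agent.ClassicalGeometry.UnitAutBasic (tau pr pr_surjective)
open Cfsg.Agent.OddHalf.D8.Fi22.Opp

variable {C : Type*} [Group C] {F : Type*} [Field F] [Fintype F]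
variable {hF : Fintype.card F = 2 ^ 2} {π : C →* PSU 6 F 2} {z ε : C} {lift : (Fin 6 → F) → C}

theorem herm_y0' (x : Fin 6 → F) (k : F) : hermForm 6 F 2 x (y0 k) = x 4 + x 5 * k ^ 2 := by
  rw [herm_def, Fin.sum_univ_six]
  simp [y0]

/-- a vector orthogonal to `u`, not to `w` -/
theorem exists_vec (hF : Fintype.card F = 2 ^ 2) {u w : Fin 6 → F} (hu0 : u ≠ 0) (hw : hermForm 6 F 2 w w = 0) (huw : hermForm 6 F 2 w u = 0) (hne : ¬ ∃ c : F, w = c • u)
    (u4 : u 4 = 0) (u5 : u 5 = 0) (w4 : w 4 = 0) (w5 : w 5 = 0) :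
    ∃ y : Fin 6 → F, y 4 = 0 ∧ y 5 = 0 ∧ hermForm 6 F 2 y y = 0 ∧ hermForm 6 F 2 y u = 0 ∧
      hermForm 6 F 2 y w ≠ 0 := by
  classical
  have h2 : (2 : F) = 0 := two_eq_zero hF
  obtain ⟨ω, hω⟩ := exists_omega hF
  obtain ⟨i, hi⟩ : ∃ i, u i ≠ 0 := by
    by_contra hcon
    push Not at hcon
    exact hu0 (funext hcon)
  obtain ⟨j, hj⟩ : ∃ j, u j * w i - u i * w j ≠ 0 := by
    by_contra hcon
    push Not at hcon
    apply hne
    refine ⟨w i / u i, ?_⟩
    funext j
    have := hcon j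
    rw [Pi.smul_apply, smul_eq_mul, div_mul_eq_mul_div, eq_div_iff hi]
    linear_combination -this
  have hij : i ≠ j := by
    rintro rfl
    exact hj (by ring)
  have hi4 : i ≠ 4 := by rintro rfl; exact hi u4
  have hi5 : i ≠ 5 := by rintro rfl; exact hi u5
  have hj4 : j ≠ 4 := by rintro rfl; exact hj (by rw [u4, w4]; ring)
  have hj5 : j ≠ 5 := by rintro rfl; exact hj (by rw [u5, w5]; ring)
  set x : Fin 6 → F := fun l => if l = i then (u j) ^ 2 else if l = j then - (u i) ^ 2 else 0 with hx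
  have key : ∀ v : Fin 6 → F, hermForm 6 F 2 x v = (u j) ^ 2 * (v i) ^ 2 - (u i) ^ 2 * (v j) ^ 2 := by
    intro v
    rw [herm_def, ← Finset.add_sum_erase _ _ (Finset.mem_univ i),
      ← Finset.add_sum_erase _ _ (Finset.mem_erase.2 ⟨hij.symm, Finset.mem_univ j⟩), Finset.sum_eq_zero]
    · simp only [hx, if_true, if_neg hij.symm]
      ring
    · intro l hl
      rw [Finset.mem_erase, Finset.mem_erase] at hl
      simp only [hx, if_neg hl.1, if_neg hl.2.1, zero_mul]
  have hxu : hermForm 6 F 2 x u = 0 := by rw [key]; ring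
  have hxw : hermForm 6 F 2 x w = (u j * w i - u i * w j) ^ 2 := by
    rw [key]
    linear_combination (u i * w j * (u j * w i) - (u i * w j) ^ 2) * h2
  set s : F := hermForm 6 F 2 x w with hs
  have hs0 : s ≠ 0 := by rw [hxw]; exact pow_ne_zero 2 hj
  have hs3 : s ^ 3 = 1 := pow_three hF hs0
  set n : F := hermForm 6 F 2 x x with hn
  have hnn : n ^ 2 = n := herm_self_pow hF x
  have hwx : hermForm 6 F 2 w x = s ^ 2 := herm_swap hF x w
  refine ⟨x + (n * ω * s) • w, ?_, ?_, ?_, ?_, ?_⟩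
  · simp only [Pi.add_apply, Pi.smul_apply, w4, smul_zero, add_zero, hx, if_neg hi4.symm, if_neg hj4.symm]
  · simp only [Pi.add_apply, Pi.smul_apply, w5, smul_zero, add_zero, hx, if_neg hi5.symm, if_neg hj5.symm]
  · rw [herm_add_left, herm_add_right hF, herm_add_right hF, herm_smul_left, herm_smul_right, herm_smul_left,
      herm_smul_right, hw, ← hn, ← hs, hwx]
    have hω2 : ω ^ 2 = - ω - 1 := by linear_combination hω
    linear_combination (n ^ 2 * ω ^ 2 + n * ω) * hs3 + ω ^ 2 * hnn + n * hω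
  · rw [herm_add_left, herm_smul_left, hxu, huw]
    ring
  · rw [herm_add_left, herm_smul_left, hw, mul_zero, add_zero]
    exact hs0

variable (L : Lab hF π z ε lift)

include L

/-- two noncommuting labelled elements are conjugate to the standard ones -/
theorem exists_std {ω : F} (hω : ω ^ 2 + ω + 1 = 0) {a b : C} (ha : a ∈ Dset lift) (hb : b ∈ Dset lift)
    (hab : ¬ Commute a b) : ∃ (s : SU 6 F 2) (c : C), π c = pr 6 F 2 s ∧ c * lift (y0 1) * c⁻¹ = a ∧
      c * lift (y0 ω) * c⁻¹ = b := by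
  have h2 : (2 : F) = 0 := two_eq_zero hF
  have hω3 : ω ^ 3 = 1 := by linear_combination (ω - 1) * hω
  have i1 := y0_iso (F := F) (k := 1) h2 (by ring)
  have iω := y0_iso (F := F) (k := ω) h2 hω3
  have hA : lift (y0 1) ∈ Dset lift := Lab.mem_D (y0_ne _) i1
  have hB : lift (y0 ω) ∈ Dset lift := Lab.mem_D (y0_ne _) iω
  have hAB : ¬ Commute (lift (y0 1)) (lift (y0 ω)) := by
    rw [L.commute_iff i1 iω (y0_ne _) (y0_ne _), herm_y0]
    intro h1
    have : (1 : F) = 0 := by linear_combination hω - (ω + 1) * (hω - h1)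
    exact one_ne_zero this
  obtain ⟨c, h3, h4⟩ := L.trans_noncommuting _ hA _ hB a ha b hb hAB hab
  obtain ⟨s, hs⟩ := pr_surjective (π c)
  exact ⟨s, c, hs.symm, h3, h4⟩

/-- **(L2)** -/
theorem exists_not {b t e f : C} (hb : b ∈ Dset lift) (ht : t ∈ Dset lift) (he : e ∈ Dset lift) (hf : f ∈ Dset lift)
    (hbt : ¬ Commute b t) (eb : Commute e b) (et : Commute e t) (fb : Commute f b) (ft : Commute f t)
    (ef : Commute e f) (hne : e ≠ f) :
    ∃ y ∈ Dset lift, Commute y b ∧ Commute y t ∧ Commute y e ∧ ¬ Commute y f := by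
  obtain ⟨ω, hω⟩ := exists_omega hF
  have h2 : (2 : F) = 0 := two_eq_zero hF
  have hω3 : ω ^ 3 = 1 := by linear_combination (ω - 1) * hω
  have i1 := y0_iso (F := F) (k := 1) h2 (by ring)
  have iω := y0_iso (F := F) (k := ω) h2 hω3
  obtain ⟨s, c, hs, h3, h4⟩ := exists_std L hω hb ht hbt
  have pull : ∀ x ∈ Dset lift, ∃ v, v ≠ 0 ∧ hermForm 6 F 2 v v = 0 ∧ x = c * lift v * c⁻¹ := by
    intro x hx
    obtain ⟨v, hv0, hv, h⟩ := L.conj_mem hx c⁻¹
    refine ⟨v, hv0, hv, ?_⟩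
    rw [← h]; group
  obtain ⟨u, hu0, hu, rfl⟩ := pull e he
  obtain ⟨w, hw0, hw, rfl⟩ := pull f hf
  rw [← h3, conj_comm_iff, L.commute_iff hu i1 hu0 (y0_ne _), herm_y0'] at eb
  rw [← h4, conj_comm_iff, L.commute_iff hu iω hu0 (y0_ne _), herm_y0'] at et
  rw [← h3, conj_comm_iff, L.commute_iff hw i1 hw0 (y0_ne _), herm_y0'] at fb
  rw [← h4, conj_comm_iff, L.commute_iff hw iω hw0 (y0_ne _), herm_y0'] at ft
  rw [conj_comm_iff, L.commute_iff hu hw hu0 hw0] at ef
  have hω0 : ω ≠ 0 := by rintro rfl; simp at hω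
  have k45 : ∀ x y : F, x + y * 1 ^ 2 = 0 → x + y * ω ^ 2 = 0 → x = 0 ∧ y = 0 := by
    intro x y h h'
    have h5 : y * ω = 0 := by linear_combination -h' + h - y * hω + y * (ω + ω ^ 2) * h2
    have h6 : y = 0 := (mul_eq_zero.1 h5).resolve_right hω0
    refine ⟨?_, h6⟩
    rw [h6] at h
    linear_combination h
  obtain ⟨u4, u5⟩ := k45 _ _ eb et
  obtain ⟨w4, w5⟩ := k45 _ _ fb ft
  obtain ⟨y, y4, y5, hy, hyu, hyw⟩ := exists_vec hF hu0 hw (herm_eq_zero_swap hF ef) (by
    rintro ⟨k, rfl⟩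
    apply hne
    have hk : k ≠ 0 := by
      rintro rfl
      exact hw0 (zero_smul _ _)
    rw [L.smul u k hu hk]) u4 u5 w4 w5
  have hy0 : y ≠ 0 := by
    rintro rfl
    exact hyw (herm_zero_left _)
  refine ⟨c * lift y * c⁻¹, L.conj_mem (Lab.mem_D hy0 hy) c, ?_, ?_, ?_, ?_⟩
  · rw [← h3, conj_comm_iff, L.commute_iff hy i1 hy0 (y0_ne _), herm_y0', y4, y5]
    ring
  · rw [← h4, conj_comm_iff, L.commute_iff hy iω hy0 (y0_ne _), herm_y0', y4, y5]
    ring
  · rwa [conj_comm_iff, L.commute_iff hy hu hy0 hu0]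
  · rwa [conj_comm_iff, L.commute_iff hy hw hy0 hw0]

/-- **(L1)** -/
theorem exists_not' {b t f : C} (hb : b ∈ Dset lift) (ht : t ∈ Dset lift) (hf : f ∈ Dset lift)
    (hbt : ¬ Commute b t) (fb : Commute f b) (ft : Commute f t) :
    ∃ y ∈ Dset lift, Commute y b ∧ Commute y t ∧ ¬ Commute y f := by
  by_contra hcon
  push Not at hcon
  rcases third L hb ht hf hbt hcon with h | h | h
  · rw [h] at ft; exact hbt ft
  · rw [h] at fb; exact hbt fb.symm
  · apply hbt
    have hbb : b * b = 1 := by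
      obtain ⟨v, h0, hv, rfl⟩ := hb
      exact L.sq v h0 hv
    have h1 : t = b * f * b := by
      rw [h]
      calc t = (b * b) * t * (b * b) := by rw [hbb, one_mul, mul_one]
        _ = b * (b * t * b) * b := by group
    rw [h1]
    exact ((Commute.refl b).mul_right fb.symm).mul_right (Commute.refl b)

/-- **(L3)** a line orthogonal to `b` and `t` -/
theorem exists_line {b t : C} (hb : b ∈ Dset lift) (ht : t ∈ Dset lift) (hbt : ¬ Commute b t) :
    ∃ u w : Fin 6 → F, (∀ k : F, u + k • w ≠ 0) ∧ w ≠ 0 ∧ (∀ k : F, hermForm 6 F 2 (u + k • w) (u + k • w) = 0) ∧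
      hermForm 6 F 2 w w = 0 ∧ (∀ a b : F, a • u + b • w = 0 → a = 0 ∧ b = 0) ∧
      (∀ k : F, Commute (lift (u + k • w)) b ∧ Commute (lift (u + k • w)) t) ∧
      Commute (lift w) b ∧ Commute (lift w) t := by
  obtain ⟨ω, hω⟩ := exists_omega hF
  have h2 : (2 : F) = 0 := two_eq_zero hF
  have hω3 : ω ^ 3 = 1 := by linear_combination (ω - 1) * hω
  have i1 := y0_iso (F := F) (k := 1) h2 (by ring)
  have iω := y0_iso (F := F) (k := ω) h2 hω3
  obtain ⟨s, c, hs, h3, h4⟩ := exists_std L hω hb ht hbt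
  set u : Fin 6 → F := p0 1 with hu
  set w : Fin 6 → F := p1 1 with hw
  have ind : ∀ a b : F, a • u + b • w = 0 → a = 0 ∧ b = 0 := by
    intro a b h
    constructor
    · have := congrFun h 0
      simpa [hu, hw, p0, p1] using this
    · have := congrFun h 2
      simpa [hu, hw, p0, p1] using this
  have n0 : ∀ k : F, u + k • w ≠ 0 := fun k h => one_ne_zero (ind 1 k (by rw [one_smul]; exact h)).1
  have iso : ∀ k : F, hermForm 6 F 2 (u + k • w) (u + k • w) = 0 := by
    intro k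
    have e1 : hermForm 6 F 2 u u = 0 := p0_iso h2 (by ring)
    have e2 : hermForm 6 F 2 w w = 0 := p1_iso h2 (by ring)
    have e3 : hermForm 6 F 2 u w = 0 := by rw [hu, herm_p0_left]; simp [hw, p1]
    have e4 : hermForm 6 F 2 w u = 0 := herm_eq_zero_swap hF e3
    rw [herm_add_left, herm_add_right hF, herm_add_right hF, herm_smul_left, herm_smul_right, herm_smul_left,
      herm_smul_right, e1, e2, e3, e4]
    ring
  have orth : ∀ k l : F, hermForm 6 F 2 (u + k • w) (y0 l) = 0 := by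
    intro k l
    rw [herm_add_left, herm_smul_left, herm_p0_y0, herm_p1_y0]
    ring
  have eL : ∀ v : Fin 6 → F, v ≠ 0 → hermForm 6 F 2 v v = 0 → lift (act s v) = c * lift v * c⁻¹ := fun v hv0 hv =>
    (L.conj c s v hs hv0 hv).symm
  have ea : ∀ k : F, act s u + k • act s w = act s (u + k • w) := by
    intro k; rw [act_add, act_smul]
  refine ⟨act s u, act s w, fun k => ?_, Lab.act_ne_zero (p1_ne 1), fun k => ?_, ?_, ?_, fun k => ?_, ?_, ?_⟩
  · rw [ea]; exact Lab.act_ne_zero (n0 k)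
  · rw [ea, herm_act]; exact iso k
  · rw [herm_act]; exact p1_iso h2 (by ring)
  · intro a b h
    apply ind
    have h5 : act s (a • u + b • w) = 0 := by rw [act_add, act_smul, act_smul, h]
    by_contra h6
    exact Lab.act_ne_zero h6 h5
  · rw [ea, eL _ (n0 k) (iso k), ← h3, ← h4, conj_comm_iff, conj_comm_iff, L.commute_iff (iso k) i1 (n0 k) (y0_ne _),
      L.commute_iff (iso k) iω (n0 k) (y0_ne _)]
    exact ⟨orth k 1, orth k ω⟩
  · rw [eL _ (p1_ne 1) (p1_iso h2 (by ring)), ← h3, conj_comm_iff,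
      L.commute_iff (p1_iso h2 (by ring)) i1 (p1_ne 1) (y0_ne _)]
    exact herm_p1_y0 1 1
  · rw [eL _ (p1_ne 1) (p1_iso h2 (by ring)), ← h4, conj_comm_iff,
      L.commute_iff (p1_iso h2 (by ring)) iω (p1_ne 1) (y0_ne _)]
    exact herm_p1_y0 1 ω

end Cfsg.Agent.H359.SK.FiLink
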